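import Cfsg.Agent.SignTransfer.Basic

/-!
Splitting off a dihedral subgroup of a Sylow 2-subgroup.
-/

set_option autoImplicit false

namespace Cfsg.Agent.SignTransfer

variable {G : Type*} [Group G] [Finite G]

theorem outside_involution {D C : Subgroup G} {n : ℕ} (hn : 2 ≤ n) (e : ↥D ≃* DihedralGroup n)
    (hCD : C ≤ D) (hC : IsCyclic ↥C) (hCi : C.relIndex D = 2) {x : G} (hx : x ∈ D) (hxC : x ∉ C) :
    orderOf x = 2 := by
  have : NeZero n := ⟨by omega⟩
  have hcardD : Nat.card D = 2 * n := (Nat.card_congr e.toEquiv).trans DihedralGroup.nat_card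
  have hcardC : Nat.card C = n := by
    have h1 := Subgroup.card_mul_index (C.subgroupOf D)
    rw [Nat.card_congr (Subgroup.subgroupOfEquivOfLe hCD).toEquiv] at h1
    change Nat.card C * C.relIndex D = _ at h1
    rw [hCi, hcardD] at h1
    omega
  obtain ⟨c, hc⟩ := hC.exists_generator
  have hoc : orderOf (c : G) = n := by
    rw [Subgroup.orderOf_coe, orderOf_eq_card_of_forall_mem_zpowers hc, hcardC]
  have key : ∀ d : D, orderOf (d : G) = orderOf (e d) := fun d => by
    rw [MulEquiv.orderOf_eq, Subgroup.orderOf_coe]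
  have hne : x ≠ 1 := fun h => hxC (h ▸ one_mem C)
  by_cases hn2 : n = 2
  · subst hn2
    refine orderOf_eq_prime ?_ hne
    have h : ∀ a : DihedralGroup 2, a ^ 2 = 1 := by decide
    have h2 := h (e ⟨x, hx⟩)
    rw [← map_pow, MulEquiv.map_eq_one_iff] at h2
    simpa using congrArg Subtype.val h2
  obtain ⟨i, hi⟩ | ⟨i, hi⟩ : (∃ i, e ⟨c, hCD c.2⟩ = DihedralGroup.r i) ∨
      ∃ i, e ⟨c, hCD c.2⟩ = DihedralGroup.sr i := by
    cases e ⟨c, hCD c.2⟩ with
    | r i => exact Or.inl ⟨i, rfl⟩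
    | sr i => exact Or.inr ⟨i, rfl⟩
  swap
  · exfalso
    have h := key ⟨c, hCD c.2⟩
    rw [hoc, hi, DihedralGroup.orderOf_sr] at h
    exact hn2 h
  rw [key ⟨x, hx⟩]
  cases hex : e ⟨x, hx⟩ with
  | sr j => exact DihedralGroup.orderOf_sr j
  | r j =>
    exfalso
    apply hxC
    -- the map `k ↦ k i` is surjective as `r i` has order `n`
    have h := key ⟨c, hCD c.2⟩
    rw [hoc, hi] at h
    have hinj : Function.Injective (fun k : Fin n => DihedralGroup.r i ^ (k : ℕ)) := fun a b hab =>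
      Fin.ext (pow_injOn_Iio_orderOf (by rw [← h]; exact a.2) (by rw [← h]; exact b.2) hab)
    obtain ⟨k, hk⟩ : ∃ k : ℕ, DihedralGroup.r i ^ k = DihedralGroup.r j := by
      let f : Fin n → ZMod n := fun k => i * (k : ℕ)
      have hf : Function.Injective f := fun a b hab => hinj (by
        simp only [DihedralGroup.r_pow]; exact congrArg DihedralGroup.r hab)
      obtain ⟨k, hk⟩ := ((Fintype.bijective_iff_injective_and_card f).2 ⟨hf, by simp⟩).2 j
      exact ⟨k, by rw [DihedralGroup.r_pow]; exact congrArg DihedralGroup.r hk⟩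
    rw [← hi, ← map_pow, ← hex] at hk
    have := congrArg Subtype.val (e.injective hk)
    simp only [Subgroup.coe_pow] at this
    rw [← this]
    exact pow_mem c.2 k

theorem main (L T S D C : Subgroup G) (hL : Cfsg.pResidual 2 ↥L = ⊤)
    (hTL : T ≤ L) (hT2 : IsPGroup 2 T) (hTsyl : ¬ 2 ∣ T.relIndex L)
    (hS2 : IsPGroup 2 S) (hSsyl : ¬ 2 ∣ S.index) (hTS : T ≤ S)
    (hDS : D ≤ S) (hDih : ∃ n : ℕ, 2 ≤ n ∧ Nonempty (↥D ≃* DihedralGroup n)) (hDT : D ⊓ T = ⊥)
    (hTD : T ⊔ D = S) (hTDc : Nat.card T * Nat.card D = Nat.card S)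
    (hCD : C ≤ D) (hC : IsCyclic ↥C) (hCi : C.relIndex D = 2)
    (h1 : ∀ x ∈ D, x ∉ C → orderOf x = 2 → ∀ g : G, g * x * g⁻¹ ∈ T ⊔ C → False)
    (h2 : ∀ c ∈ C, orderOf c = 2 → ∀ g : G, g * c * g⁻¹ ∈ T → False) :
    ∃ K : Subgroup G, K.Normal ∧ K ⊔ D = ⊤ ∧
      ∀ T' : Subgroup G, T' ≤ L → IsPGroup 2 T' → ¬ 2 ∣ T'.relIndex L →
        T' ≤ K ∧ ¬ 2 ∣ T'.relIndex K := by
  classical
  have : Fact (Nat.Prime 2) := ⟨Nat.prime_two⟩
  obtain ⟨n, hn, ⟨e⟩⟩ := hDih
  set K := Cfsg.pResidual 2 G with hK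
  have hKn : K.Normal := CfsgLib.Transfer.pResidual_normal
  have hLK : L ≤ K := by
    intro g hg
    have h : (⟨g, hg⟩ : L) ∈ Cfsg.pResidual 2 L := hL ▸ Subgroup.mem_top _
    exact CfsgLib.Transfer.map_pResidual_le L.subtype ⟨_, h, rfl⟩
  have hTK : T ≤ K := hTL.trans hLK
  have hsup : K ⊔ S = ⊤ := CfsgLib.Transfer.pResidual_sup_sylow (hS2.toSylow hSsyl)
  have hrel : S.relIndex K = S.index := by
    have h1 : K.relIndex S = K.index := by
      rw [← Subgroup.relIndex_sup_left S K, hsup, Subgroup.relIndex_top_right]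
    have a := Subgroup.card_mul_index K
    have b := Subgroup.card_mul_index S
    have c := Subgroup.card_mul_index ((S ⊓ K).subgroupOf K)
    have d := Subgroup.card_mul_index ((S ⊓ K).subgroupOf S)
    rw [Nat.card_congr (Subgroup.subgroupOfEquivOfLe (inf_le_right : S ⊓ K ≤ K)).toEquiv] at c
    rw [Nat.card_congr (Subgroup.subgroupOfEquivOfLe (inf_le_left : S ⊓ K ≤ S)).toEquiv] at d
    change _ * (S ⊓ K).relIndex K = _ at c
    change _ * (S ⊓ K).relIndex S = _ at d
    rw [Subgroup.inf_relIndex_right] at c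
    rw [Subgroup.inf_relIndex_left, h1] at d
    rw [← c, ← b, ← d, mul_right_comm] at a
    exact Nat.eq_of_mul_eq_mul_left (by rw [d]; exact Nat.card_pos) a
  -- the product map is bijective
  have hprod : ∀ s ∈ S, ∃ t ∈ T, ∃ d ∈ D, t * d = s := by
    intro s hs
    let f : T × D → S := fun td => ⟨td.1.1 * td.2.1, mul_mem (hTS td.1.2) (hDS td.2.2)⟩
    have hf : Function.Injective f := by
      rintro ⟨a, b⟩ ⟨a', b'⟩ h
      have h' : (a : G) * b = a' * b' := congrArg Subtype.val h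
      have h'' : (a' : G)⁻¹ * a = b' * (b : G)⁻¹ := by
        rw [eq_mul_inv_iff_mul_eq, mul_assoc, h', inv_mul_cancel_left]
      have hz : (a' : G)⁻¹ * a ∈ D ⊓ T :=
        ⟨h''.symm ▸ D.mul_mem b'.2 (D.inv_mem b.2), T.mul_mem (T.inv_mem a'.2) a.2⟩
      rw [hDT, Subgroup.mem_bot] at hz
      rw [hz] at h''
      exact Prod.ext (Subtype.ext (inv_mul_eq_one.1 hz).symm)
        (Subtype.ext (mul_inv_eq_one.1 h''.symm).symm)
    obtain ⟨⟨t, d⟩, htd⟩ :=
      ((Nat.bijective_iff_injective_and_card f).2 ⟨hf, by rw [Nat.card_prod, hTDc]⟩).2 ⟨s, hs⟩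
    exact ⟨t, t.2, d, d.2, congrArg Subtype.val htd⟩
  -- no involution of `D` outside `C` lies in `K`
  have hout : ∀ x ∈ D, x ∉ C → x ∉ K := by
    intro x hx hxC hxK
    have hx2 := outside_involution hn e hCD hC hCi hx hxC
    have hne : T ⊔ C ≠ S := fun h =>
      h1 x hx hxC hx2 1 (by rw [one_mul, inv_one, mul_one, h]; exact hDS hx)
    have hle : T ⊔ C ≤ S := sup_le hTS (hCD.trans hDS)
    have hcard : 2 * Nat.card ↥(T ⊔ C) = Nat.card S := by
      let f : T × C → ↥(T ⊔ C) := fun td => ⟨td.1.1 * td.2.1,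
        mul_mem (Subgroup.mem_sup_left td.1.2) (Subgroup.mem_sup_right td.2.2)⟩
      have hf : Function.Injective f := by
        rintro ⟨a, b⟩ ⟨a', b'⟩ h
        have h' : (a : G) * b = a' * b' := congrArg Subtype.val h
        have h'' : (a' : G)⁻¹ * a = b' * (b : G)⁻¹ := by
          rw [eq_mul_inv_iff_mul_eq, mul_assoc, h', inv_mul_cancel_left]
        have hz : (a' : G)⁻¹ * a ∈ D ⊓ T :=
          ⟨h''.symm ▸ hCD (C.mul_mem b'.2 (C.inv_mem b.2)), T.mul_mem (T.inv_mem a'.2) a.2⟩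
        rw [hDT, Subgroup.mem_bot] at hz
        rw [hz] at h''
        exact Prod.ext (Subtype.ext (inv_mul_eq_one.1 hz).symm)
          (Subtype.ext (mul_inv_eq_one.1 h''.symm).symm)
      have hle' := Nat.card_le_card_of_injective f hf
      rw [Nat.card_prod] at hle'
      have hDC : Nat.card D = Nat.card C * 2 := by
        have := Subgroup.card_mul_index (C.subgroupOf D)
        rw [Nat.card_congr (Subgroup.subgroupOfEquivOfLe hCD).toEquiv] at this
        change Nat.card C * C.relIndex D = _ at this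
        rw [hCi] at this
        exact this.symm
      obtain ⟨q, hq⟩ := Subgroup.card_dvd_of_le hle
      have hS0 : 0 < Nat.card S := Nat.card_pos
      have hq2 : q ≤ 2 := by
        by_contra h
        have : Nat.card T * Nat.card C * 3 ≤ Nat.card ↥(T ⊔ C) * q :=
          Nat.mul_le_mul hle' (by omega)
        rw [← hq, ← hTDc, hDC, ← mul_assoc] at this
        have := Nat.card_pos (α := T)
        have := Nat.card_pos (α := C)
        have : 0 < Nat.card T * Nat.card C := Nat.mul_pos ‹_› ‹_›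
        omega
      have hq1 : q ≠ 1 := fun h => hne (Subgroup.eq_of_le_of_card_ge hle (by rw [hq, h, mul_one]))
      have hq0 : q ≠ 0 := fun h => by rw [h, mul_zero] at hq; omega
      rw [hq, show q = 2 by omega, mul_comm]
    have hS' : (T ⊔ C).index = 2 ^ 1 * S.index := by
      have h3 := Subgroup.card_mul_index (T ⊔ C)
      have h4 := Subgroup.card_mul_index S
      rw [← hcard, ← h3, mul_assoc, Nat.mul_left_comm] at h4
      rw [pow_one]
      exact (Nat.eq_of_mul_eq_mul_left Nat.card_pos h4).symm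
    refine notMem_pResidual (T ⊔ C) le_rfl (by rw [pow_one]; exact hx2) hS'
      (Nat.odd_iff.2 (by omega)) (fun g => ?_) hxK
    rw [show (1 : ℕ) - 1 = 0 from rfl, pow_zero, pow_one]
    exact fun h => h1 x hx hxC hx2 g h
  -- `D` meets `K` trivially
  have hDK : ∀ d ∈ D, d ∈ K → d = 1 := by
    by_contra hnot
    push Not at hnot
    obtain ⟨d, hd, hdK, hd1⟩ := hnot
    set C₁ : Subgroup G := D ⊓ K with hC₁
    have hC₁C : C₁ ≤ C := fun y hy => by_contra fun h => hout y hy.1 h hy.2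
    have hcyc : IsCyclic C₁ :=
      isCyclic_of_injective (Subgroup.inclusion hC₁C) (Subgroup.inclusion_injective hC₁C)
    obtain ⟨w, hw⟩ := hcyc.exists_generator
    obtain ⟨k, hk⟩ := IsPGroup.iff_card.1 (hS2.to_le ((inf_le_left : C₁ ≤ D).trans hDS))
    have how : orderOf (w : G) = 2 ^ k := by
      rw [Subgroup.orderOf_coe, orderOf_eq_card_of_forall_mem_zpowers hw, hk]
    have hk1 : 1 ≤ k := by
      by_contra h
      rw [show k = 0 by omega, pow_zero, Subgroup.card_eq_one] at hk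
      have hd' : d ∈ D ⊓ K := ⟨hd, hdK⟩
      rw [hk, Subgroup.mem_bot] at hd'
      exact hd1 hd'
    -- the index of `T` in `K`
    set Tk := T.subgroupOf K with hTk
    have hTkc : Nat.card Tk = Nat.card T := Nat.card_congr (Subgroup.subgroupOfEquivOfLe hTK).toEquiv
    have hSK : Nat.card ↥(S ⊓ K : Subgroup G) = Nat.card T * 2 ^ k := by
      let f : T × C₁ → ↥(S ⊓ K : Subgroup G) := fun td => ⟨td.1.1 * td.2.1,
        mul_mem (show (td.1 : G) ∈ S ⊓ K from ⟨hTS td.1.2, hTK td.1.2⟩)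
          (show (td.2 : G) ∈ S ⊓ K from ⟨hDS td.2.2.1, td.2.2.2⟩)⟩
      have hf : Function.Bijective f := by
        constructor
        · rintro ⟨a, b⟩ ⟨a', b'⟩ h
          have h' : (a : G) * b = a' * b' := congrArg Subtype.val h
          have h'' : (a' : G)⁻¹ * a = b' * (b : G)⁻¹ := by
            rw [eq_mul_inv_iff_mul_eq, mul_assoc, h', inv_mul_cancel_left]
          have hz : (a' : G)⁻¹ * a ∈ D ⊓ T :=
            ⟨h''.symm ▸ D.mul_mem b'.2.1 (D.inv_mem b.2.1), T.mul_mem (T.inv_mem a'.2) a.2⟩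
          rw [hDT, Subgroup.mem_bot] at hz
          rw [hz] at h''
          exact Prod.ext (Subtype.ext (inv_mul_eq_one.1 hz).symm)
            (Subtype.ext (mul_inv_eq_one.1 h''.symm).symm)
        · rintro ⟨s, hs⟩
          obtain ⟨t, ht, d', hd', rfl⟩ := hprod s hs.1
          have hdK' : d' ∈ K := by
            have := mul_mem (inv_mem (hTK ht)) hs.2
            rwa [inv_mul_cancel_left] at this
          exact ⟨(⟨t, ht⟩, ⟨d', hd', hdK'⟩), rfl⟩
      rw [← Nat.card_eq_of_bijective f hf, Nat.card_prod, hk]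
    have hidx : Tk.index = 2 ^ k * (S ⊓ K).relIndex K := by
      have h3 := Subgroup.card_mul_index Tk
      have h4 := Subgroup.card_mul_index ((S ⊓ K).subgroupOf K)
      rw [Nat.card_congr (Subgroup.subgroupOfEquivOfLe (inf_le_right : S ⊓ K ≤ K)).toEquiv, hSK] at h4
      rw [hTkc, ← h4, mul_assoc] at h3
      exact Nat.eq_of_mul_eq_mul_left Nat.card_pos h3
    have hodd : Odd ((S ⊓ K).relIndex K) := by
      rw [Subgroup.inf_relIndex_right, Nat.odd_iff]
      rw [hrel]
      omega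
    have hKK : Cfsg.pResidual 2 K = ⊤ := by
      rw [eq_top_iff]
      intro g _
      have hle : K ≤ (Cfsg.pResidual 2 K).map K.subtype :=
        (Subgroup.closure_le _).2 fun y (hy : (orderOf y).Coprime 2) =>
          ⟨⟨y, CfsgLib.Transfer.mem_pResidual_of_coprime hy⟩,
            CfsgLib.Transfer.mem_pResidual_of_coprime (by rwa [Subgroup.orderOf_mk]), rfl⟩
      obtain ⟨z, hz, hzg⟩ := hle g.2
      exact Subtype.ext hzg ▸ hz
    refine notMem_pResidual Tk (w := (⟨w, w.2.2⟩ : K)) hk1 (by rw [Subgroup.orderOf_mk, how]) hidx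
      hodd (fun g hg => ?_) (hKK ▸ Subgroup.mem_top _)
    refine h2 ((w : G) ^ 2 ^ (k - 1)) (pow_mem (hC₁C w.2) _) ?_ g ?_
    · rw [orderOf_pow' _ (pow_ne_zero _ two_ne_zero), how,
        Nat.gcd_eq_right (pow_dvd_pow 2 (by omega : k - 1 ≤ k)),
        Nat.pow_div (by omega) two_pos, show k - (k - 1) = 1 by omega, pow_one]
    · simpa [hTk, Subgroup.mem_subgroupOf] using hg
  refine ⟨K, hKn, ?_, fun T' hT'L hT'2 hT'syl => ⟨hT'L.trans hLK, ?_⟩⟩
  · refine eq_top_iff.2 (hsup ▸ sup_le le_sup_left ?_)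
    rw [← hTD]
    exact sup_le (hTK.trans le_sup_left) le_sup_right
  · have hT'T : Nat.card T' = Nat.card T := by
      have c1 := ((hT'2.of_equiv (Subgroup.subgroupOfEquivOfLe hT'L).symm).toSylow
        (p := 2) hT'syl).card_eq_multiplicity
      have c2 := ((hT2.of_equiv (Subgroup.subgroupOfEquivOfLe hTL).symm).toSylow
        (p := 2) hTsyl).card_eq_multiplicity
      erw [Nat.card_congr (Subgroup.subgroupOfEquivOfLe hT'L).toEquiv] at c1
      erw [Nat.card_congr (Subgroup.subgroupOfEquivOfLe hTL).toEquiv] at c2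
      rw [c1, c2]
    have hSKT : S ⊓ K = T := by
      refine le_antisymm (fun s hs => ?_) (le_inf hTS hTK)
      obtain ⟨t, ht, d, hd, rfl⟩ := hprod s hs.1
      have hdK : d ∈ K := by
        have := mul_mem (inv_mem (hTK ht)) hs.2
        rwa [inv_mul_cancel_left] at this
      rw [hDK d hd hdK, mul_one]; exact ht
    have e1 : T'.relIndex K = T.relIndex K := by
      have a := Subgroup.card_mul_index (T'.subgroupOf K)
      have b := Subgroup.card_mul_index (T.subgroupOf K)
      rw [Nat.card_congr (Subgroup.subgroupOfEquivOfLe (hT'L.trans hLK)).toEquiv, hT'T] at a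
      rw [Nat.card_congr (Subgroup.subgroupOfEquivOfLe hTK).toEquiv, ← a] at b
      exact (Nat.eq_of_mul_eq_mul_left Nat.card_pos b).symm
    rw [e1, ← hSKT, Subgroup.inf_relIndex_right]
    rw [hrel]; exact hSsyl

end Cfsg.Agent.SignTransfer
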