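import Mathlib
import Cfsg.Agent.Transfer.Residual

/-!
The sign of a coset action as a substitute for transfer onto a cyclic 2-group.
-/

set_option autoImplicit false

namespace Cfsg.Agent.SignTransfer

variable {G : Type*} [Group G] [Finite G]

/-- A hom to the sign group kills the 2-residual. -/
theorem pResidual_le_ker (f : G →* ℤˣ) : Cfsg.pResidual 2 G ≤ f.ker := by
  refine (Subgroup.closure_le _).2 fun g (hg : (orderOf g).Coprime 2) => ?_
  obtain ⟨j, hj⟩ := (Nat.coprime_two_right.1 hg)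
  have h : f g ^ orderOf g = 1 := by rw [← map_pow, pow_orderOf_eq_one, map_one]
  rw [hj, pow_succ, pow_mul, Int.units_sq, one_pow, one_mul] at h
  exact h

/-- A 2-element whose involution is in no conjugate of `H`, of order the 2-part of the index, acts
as an odd permutation on the cosets of `H`, so lies outside the 2-residual. -/
theorem notMem_pResidual (H : Subgroup G) {w : G} {k m : ℕ} (hk : 1 ≤ k)
    (hw : orderOf w = 2 ^ k) (hi : H.index = 2 ^ k * m) (hm : Odd m)
    (hfree : ∀ g : G, g * w ^ 2 ^ (k - 1) * g⁻¹ ∉ H) : w ∉ Cfsg.pResidual 2 G := by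
  classical
  let _ : Fintype (G ⧸ H) := Fintype.ofFinite _
  intro hwK
  set σ : Equiv.Perm (G ⧸ H) := MulAction.toPermHom G (G ⧸ H) w with hσ
  have hsign : Equiv.Perm.sign σ = 1 :=
    pResidual_le_ker (Equiv.Perm.sign.comp (MulAction.toPermHom G (G ⧸ H))) hwK
  -- a power of `w` smaller than its order fixes nothing
  have hfix : ∀ n : ℕ, n ∣ 2 ^ k → n ≠ 2 ^ k → ∀ x : G ⧸ H, w ^ n • x ≠ x := by
    intro n hn hne x hx
    obtain ⟨g, rfl⟩ := QuotientGroup.mk_surjective x
    obtain ⟨j, hj, rfl⟩ := (Nat.dvd_prime_pow Nat.prime_two).1 hn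
    have hjk : j < k := lt_of_le_of_ne hj (fun h => hne (by rw [h]))
    obtain ⟨e, he⟩ : 2 ^ j ∣ 2 ^ (k - 1) := pow_dvd_pow 2 (by omega)
    have hmem : g⁻¹ * w ^ 2 ^ j * g⁻¹⁻¹ ∈ H := by
      have h := QuotientGroup.eq.1 hx.symm
      simp only [smul_eq_mul, ← mul_assoc] at h
      rwa [inv_inv]
    refine hfree g⁻¹ ?_
    rw [he, pow_mul, ← conj_pow]
    exact pow_mem hmem e
  have hσpow : ∀ n : ℕ, ∀ x, (σ ^ n) x = w ^ n • x := fun n x => by
    rw [hσ, ← map_pow]; rfl
  have hcyc : ∀ c ∈ σ.cycleType, c = 2 ^ k := by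
    intro c hc
    have hdvd : c ∣ 2 ^ k :=
      (Equiv.Perm.dvd_of_mem_cycleType hc).trans ((orderOf_map_dvd _ w).trans (dvd_of_eq hw))
    by_contra hne
    obtain ⟨f, τ, hστ, hdis, hf, hfc⟩ := Equiv.Perm.mem_cycleType_iff.1 hc
    obtain ⟨x, hx⟩ := hf.nonempty_support
    have hτ : τ x = x := (hdis x).resolve_left (Equiv.Perm.mem_support.1 hx)
    refine hfix c hdvd hne x ?_
    rw [← hσpow, hστ, hdis.commute.mul_pow, ← hfc, ← hf.orderOf, pow_orderOf_eq_one, one_mul]
    exact Equiv.Perm.pow_apply_eq_self_of_apply_eq_self hτ _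
  have hrep : σ.cycleType = Multiset.replicate σ.cycleType.card (2 ^ k) :=
    Multiset.eq_replicate.2 ⟨rfl, hcyc⟩
  have hsupp : σ.support = Finset.univ := Finset.eq_univ_of_forall fun x => by
    rw [Equiv.Perm.mem_support]
    intro hx
    refine hfix 1 (one_dvd _) (fun h => ?_) x (by rw [← hσpow, pow_one]; exact hx)
    have := Nat.one_lt_two_pow (by omega : k ≠ 0)
    omega
  have hsum := σ.sum_cycleType
  rw [hrep, Multiset.sum_replicate, smul_eq_mul, hsupp, Finset.card_univ,
    ← Nat.card_eq_fintype_card, ← Subgroup.index_eq_card, hi, mul_comm] at hsum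
  have hcard : σ.cycleType.card = m := Nat.eq_of_mul_eq_mul_left (pow_pos two_pos k) hsum
  rw [Equiv.Perm.sign_of_cycleType, σ.sum_cycleType, hsupp, Finset.card_univ,
    ← Nat.card_eq_fintype_card, ← Subgroup.index_eq_card, hi, hcard] at hsign
  have hodd : Odd (2 ^ k * m + m) :=
    Even.add_odd (Even.mul_right ((Nat.even_pow).2 ⟨even_two, by omega⟩) m) hm
  rw [hodd.neg_one_pow] at hsign
  exact absurd hsign (by decide)

end Cfsg.Agent.SignTransfer
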